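import Cfsg.Agent.Lib.JankoThreeLocal.Numbers
import Cfsg.Agent.Lib.DefectOne.Principal
import Cfsg.Agent.Lib.OrderDegrees.LinearClassify
import Cfsg.Agent.Lib.Correspondences.CharKer
import Cfsg.Agent.Lib.Correspondences.Codegree

/-!
# No element of order `57` whose Sylow `19`-normalizer has index `3` over the centralizer

In a simple group of order `50232960` a subgroup `P` of order `19` with `|C(P)| = 57` and
`|N(P) : C(P)| = 3` would have a principal block with three fixed and six exceptional members.
The degrees force a faithful character of degree `3` or `16`, excluded by the classification of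
linear groups of degree below `p - 1`, or a fixed member of degree `18`, whose values on `C(P)`
make the part of order `3` act trivially.
-/

set_option autoImplicit false
set_option linter.style.haveILetI false
set_option linter.unusedSectionVars false

open Cfsg CfsgLib.Blocks CfsgLib.DefectOne

namespace CfsgLib.JankoThreeLocal

universe u

variable {G : Type u} [Group G] [Fintype G]

/-- Irreducible characters of a simple group of degree above one are faithful. -/
theorem faithful_of_simple [IsSimpleGroup G] (χ : IrrCharacter G)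
    (hd : charDegree (χ : G → ℂ) ≠ 1) :
    ∀ g : G, (χ : G → ℂ) g = (χ : G → ℂ) 1 → g = 1 := by
  classical
  have hc := CharTheory.IsIrrCharacter.isCharacter χ.2
  rcases (Correspondences.charKer_normal hc).eq_bot_or_eq_top with h | h
  · intro g hg
    exact (Subgroup.eq_bot_iff_forall _).1 h g ((Correspondences.mem_charKer hc).2 hg)
  · exfalso
    have hconst : ∀ g : G, (χ : G → ℂ) g = (charDegree (χ : G → ℂ) : ℂ) := fun g => by
      rw [Correspondences.charDegree_cast hc]
      exact (Correspondences.mem_charKer hc).1 (h ▸ Subgroup.mem_top g)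
    have h1 := CharTheory.classInner_self_of_isIrr χ.2
    simp only [classInner, hconst, map_natCast, Finset.sum_const, Finset.card_univ, nsmul_eq_mul,
      ← Nat.card_eq_fintype_card] at h1
    rw [← mul_assoc, inv_mul_cancel₀ (Nat.cast_ne_zero.2 Nat.card_pos.ne'), one_mul,
      ← Nat.cast_mul, Nat.cast_eq_one] at h1
    exact hd (Nat.eq_one_of_mul_eq_one_right h1)

/-- A character whose value on `u ^ i * v` is `-1` for `i ≠ 0`, and whose degree is below the order
of `u`, is constant on the regular part of the centralizer. -/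
theorem apply_eq_degree_of_neg_one {p : ℕ} [Fact p.Prime] (S : Sect G p) (hp : ¬ p ∣ Nat.card S.V)
    {χ : IrrCharacter G} (hd : charDegree (χ : G → ℂ) + 1 = p)
    (hval : ∀ i : ℕ, ¬ p ∣ i → ∀ v : S.V, (χ : G → ℂ) (S.u ^ i * v) = -1) (v : S.V) :
    (χ : G → ℂ) v = (χ : G → ℂ) 1 := by
  classical
  have hpp : p.Prime := Fact.out
  obtain ⟨n, ρ, hρ⟩ := CharTheory.IsIrrCharacter.isCharacter χ.2
  have hdn : charDegree (χ : G → ℂ) = n := by
    simp [charDegree, ← hρ, Representation.char_one, Module.finrank_fin_fun]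
  have hcomm : ∀ v : S.V, Commute (v : G) S.u := S.comm
  let f : Multiplicative (ZMod p) × S.V →* G := MonoidHom.noncommCoprod
    (MonoidHom.mk' (fun i => S.u ^ (Multiplicative.toAdd i).val) fun a b => by
      rw [← pow_add, toAdd_mul, ZMod.val_add]
      exact pow_eq_pow_iff_modEq.2 (by rw [S.ord]; exact Nat.mod_modEq _ _))
    S.V.subtype (fun i v => ((hcomm v).symm.pow_left _))
  have hf : ∀ i v, f (i, v) = S.u ^ (Multiplicative.toAdd i).val * (v : G) := fun i v => rfl
  let σ : Representation ℂ (Multiplicative (ZMod p) × S.V) (Fin n → ℂ) := ρ.comp f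
  have hne : (Nat.card (Multiplicative (ZMod p) × S.V) : ℂ) ≠ 0 :=
    Nat.cast_ne_zero.2 Nat.card_pos.ne'
  haveI := invertibleOfNonzero hne
  have havg := Representation.card_inv_mul_sum_char_eq_finrank σ
  set m := Module.finrank ℂ (Representation.invariants σ) with hm
  have hrow : ∀ v : S.V, (∑ i : Multiplicative (ZMod p), σ.character (i, v))
      = (χ : G → ℂ) v - (n : ℂ) := by
    intro v
    have hσ : ∀ i, σ.character (i, v) = (χ : G → ℂ) (f (i, v)) := fun i => by rw [← hρ]; rfl
    rw [← Finset.add_sum_erase _ _ (Finset.mem_univ (1 : Multiplicative (ZMod p))), hσ, hf, toAdd_one,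
      ZMod.val_zero, pow_zero, one_mul, Finset.sum_congr rfl (g := fun _ => (-1 : ℂ)) fun i hi => ?_,
      Finset.sum_const, Finset.card_erase_of_mem (Finset.mem_univ _), Finset.card_univ,
      Fintype.card_multiplicative, ZMod.card, nsmul_eq_mul, show p - 1 = n by omega]
    · ring
    · rw [hσ, hf]
      refine hval _ (fun hdvd => Finset.ne_of_mem_erase hi ?_) v
      have h0 : (Multiplicative.toAdd i).val = 0 := Nat.eq_zero_of_dvd_of_lt hdvd (ZMod.val_lt _)
      exact Multiplicative.toAdd.injective ((ZMod.val_eq_zero _).1 h0)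
  rw [inv_mul_eq_iff_eq_mul₀ hne, Fintype.sum_prod_type, Finset.sum_comm,
    Finset.sum_congr rfl fun v _ => hrow v, Nat.card_prod] at havg
  -- the real parts
  have hle : ∀ v : S.V, ((χ : G → ℂ) v).re ≤ n := fun v => by
    have h := CharTheory.IsCharacter.norm_le (CharTheory.IsIrrCharacter.isCharacter χ.2) (v : G)
    have h1 : ((χ : G → ℂ) 1).re = n := by
      rw [← hρ, Representation.char_one, Module.finrank_fin_fun]; simp
    exact (Complex.re_le_norm _).trans (h1 ▸ h)
  have hnn : (0 : ℝ) ≤ (∑ v : S.V, ((χ : G → ℂ) v - (n : ℂ))).re := by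
    rw [havg, ← Nat.cast_mul, Complex.natCast_re]
    exact Nat.cast_nonneg _
  rw [Complex.re_sum] at hnn
  have hzero : ∀ w ∈ (Finset.univ : Finset S.V), ((χ : G → ℂ) w - (n : ℂ)).re = 0 :=
    (Finset.sum_eq_zero_iff_of_nonpos fun w _ => by simpa using hle w).1
      (le_antisymm (Finset.sum_nonpos fun w _ => by simpa using hle w) hnn)
  have hre : ((χ : G → ℂ) v).re = n := by
    have := hzero v (Finset.mem_univ _)
    simpa [sub_eq_zero] using this
  have h1 : (χ : G → ℂ) 1 = n := by
    rw [← hρ, Representation.char_one, Module.finrank_fin_fun]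
  have hnorm := CharTheory.IsCharacter.norm_le (CharTheory.IsIrrCharacter.isCharacter χ.2) (v : G)
  rw [h1, Complex.natCast_re] at hnorm
  have him : ((χ : G → ℂ) v).im = 0 := by
    have h2 := Complex.sq_norm ((χ : G → ℂ) v)
    rw [Complex.normSq_apply, hre] at h2
    nlinarith [norm_nonneg ((χ : G → ℂ) v)]
  rw [h1]
  exact Complex.ext (by simp [hre]) (by simp [him])

/-- A fixed member of the principal block has no degree `18`. -/
theorem no_eighteen [IsSimpleGroup G] (hcard : Nat.card G = 50232960) {P : Sylow 19 G}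
    [Fact (Nat.Prime 19)] (S : Sect G 19) (hG : ExactPrime G 19) {M : Ideal AlgInt} [M.IsPrime]
    (hM : IsPModular 19 M) (hS : Subgroup.zpowers S.u = (P : Subgroup G))
    (hC : Nat.card (Subgroup.centralizer ((P : Subgroup G) : Set G)) = 57) {χ : IrrCharacter G}
    (hgal : galStab hG χ = 19 - 1) (hrow : rowT hG S χ (CharTheory.trivIrr S.V) ≠ 0)
    (hdeg : charDegree (χ : G → ℂ) = 18) : False := by
  classical
  have hf := faithful_of_simple χ (by omega)
  obtain ⟨z, hz⟩ := exists_prime_orderOf_dvd_card' (p := 3) (hp := ⟨Nat.prime_three⟩)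
    (G := Subgroup.centralizer ((P : Subgroup G) : Set G)) (by rw [hC]; norm_num)
  rw [← Subgroup.orderOf_coe] at hz
  have hzV : (z : G) ∈ S.V := (S.mem_iff _).2
    ⟨(Subgroup.mem_centralizer_iff.1 z.2 S.u (hS ▸ Subgroup.mem_zpowers S.u)).symm,
      by rw [hz]; norm_num⟩
  obtain ⟨t, ht, ht3⟩ := (rowT_spec hG S hM χ).1 (CharTheory.trivIrr S.V)
  have ht0 : t ≠ 0 := fun h => hrow (by rw [ht, h, Int.cast_zero])
  have hmod := degree_principal_fixed S hG hM hgal ht ht0
  rw [hdeg, Int.modEq_iff_dvd] at hmod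
  obtain rfl : t = -1 := by
    rcases ht3 with h | h | h
    · exact absurd h ht0
    · rw [h] at hmod; norm_num at hmod
    · exact h
  have hval : ∀ i : ℕ, ¬ 19 ∣ i → ∀ v : S.V, (χ : G → ℂ) (S.u ^ i * v) = -1 := by
    intro i hi v
    rw [apply_principal_fixed S hG hM hgal hrow (x := S.u ^ i)
      (Subgroup.pow_mem _ (Subgroup.mem_zpowers _) i)
      (fun h => hi (S.ord ▸ orderOf_dvd_iff_pow_eq_one.2 h))
      (Subgroup.mem_centralizer_iff.2 fun g hg => ?_) (S.reg v), ht]
    · norm_num
    · obtain ⟨j, rfl⟩ := Subgroup.mem_zpowers_iff.1 hg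
      exact ((S.comm v).zpow_right j).eq.symm
  have h1 := hf _ (apply_eq_degree_of_neg_one S S.not_dvd_card (by omega) hval ⟨z, hzV⟩)
  rw [h1, orderOf_one] at hz
  norm_num at hz

/-- The configuration `|C(P)| = 57`, `|N(P) : C(P)| = 3` does not occur. -/
theorem false_of_three [IsSimpleGroup G] (hcard : Nat.card G = 50232960) (P : Sylow 19 G)
    (hC : Nat.card (Subgroup.centralizer ((P : Subgroup G) : Set G)) = 57)
    (hN : (Subgroup.centralizer ((P : Subgroup G) : Set G)).relIndex
      (Subgroup.normalizer ((P : Subgroup G) : Set G)) = 3) : False := by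
  classical
  haveI : Fact (Nat.Prime 19) := ⟨by norm_num⟩
  have h19 : Nat.card (P : Subgroup G) = 19 := by
    rw [P.card_eq_multiplicity, hcard]
    have : (50232960 : ℕ).factorization 19 = 1 := by
      rw [← Nat.multiplicity_eq_factorization (by norm_num) (by norm_num)]
      exact multiplicity_eq_of_dvd_of_not_dvd (by norm_num) (by norm_num)
    rw [this, pow_one]
  have hPn : ¬ (P : Subgroup G).Normal := fun hn => by
    rcases hn.eq_bot_or_eq_top with h | h <;> rw [h] at h19
    · rw [Subgroup.card_bot] at h19; norm_num at h19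
    · rw [Subgroup.card_top, hcard] at h19; norm_num at h19
  have hG : ExactPrime G 19 := exactPrime_of_sylow P h19
  obtain ⟨S, hS⟩ := exists_sect_sylow P h19
  obtain ⟨M, hM⟩ := exists_isPModular_of_prime hG.prime
  haveI := isPrime_of_isPModular hM
  set φ₀ := CharTheory.trivIrr S.V with hφ₀
  have he : rowE S φ₀ = 3 := by
    rw [← rowE_trivIrr S hG]
    show (Subgroup.centralizer ((Subgroup.zpowers S.u : Subgroup G) : Set G)).relIndex
      (Subgroup.normalizer (Subgroup.zpowers S.u : Set G)) = 3
    rw [hS]; exact hN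
  obtain ⟨θ, hθ, hθe, hsub, hfix, hYc, -, hFc⟩ := exists_exceptional hG S hM φ₀
  rw [he] at hθe hYc hFc
  have hθe' : galStab hG θ = rowE S φ₀ := hθe.trans he.symm
  haveI := Fintype.ofFinite (IrrCharacter G)
  set X : Finset (IrrCharacter G) := Finset.univ.filter fun χ =>
    rowT hG S χ φ₀ ≠ 0 ∧ χ ∉ galOrb hG θ with hX
  have hXset : {ψ : IrrCharacter G | rowT hG S ψ φ₀ ≠ 0} \ (galOrb hG θ : Set (IrrCharacter G)) =
      ↑X := by
    ext c
    simp [hX]
  have hX3 : X.card = 3 := by rw [hXset, Nat.card_coe_set_eq, Set.ncard_coe_finset] at hFc; exact hFc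
  have htX : CharTheory.trivIrr G ∈ X := by
    refine Finset.mem_filter.2 ⟨Finset.mem_univ _, rowT_trivIrr hG S hM, fun h => ?_⟩
    have horb := galOrb_eq hG h
    have hone : galOrb hG (CharTheory.trivIrr G) = {CharTheory.trivIrr G} := by
      ext ψ
      rw [mem_galOrb, Finset.mem_singleton]
      exact ⟨fun ⟨k, hk⟩ => by rw [← hk]; exact Subtype.ext rfl,
        fun h => ⟨1, by rw [h]; exact Subtype.ext rfl⟩⟩
    rw [← horb, hone, Finset.card_singleton] at hYc
    norm_num at hYc
  obtain ⟨x, y, hxy, hxyX⟩ := Finset.card_eq_two.1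
    (by rw [Finset.card_erase_of_mem htX, hX3] : (X.erase (CharTheory.trivIrr G)).card = 2)
  choose s hs hs3 using fun χ => (rowT_spec hG S hM χ).1 φ₀
  have hs0 : ∀ χ, rowT hG S χ φ₀ ≠ 0 → s χ = 1 ∨ s χ = -1 := fun χ h =>
    (hs3 χ).resolve_left fun h0 => h (by rw [hs, h0, Int.cast_zero])
  -- the squares of the degrees
  have hsq : ∀ T : Finset (IrrCharacter G),
      ∑ χ ∈ T, charDegree (χ : G → ℂ) ^ 2 ≤ 50232960 := by
    intro T
    rw [← hcard]
    have h := CharTheory.sum_degree_sq (G := G)
    rw [Finset.sum_congr rfl (g := fun χ : IrrCharacter G => ((charDegree (χ : G → ℂ) ^ 2 : ℕ) : ℂ))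
      fun χ _ => by
        rw [Nat.cast_pow, Correspondences.charDegree_cast (CharTheory.IsIrrCharacter.isCharacter χ.2)],
      ← Nat.cast_sum, Nat.cast_inj] at h
    rw [← h]
    exact Finset.sum_le_sum_of_subset (Finset.subset_univ T)
  have hlt : ∀ χ : IrrCharacter G, charDegree (χ : G → ℂ) < 7088 := fun χ => by
    have := hsq {χ}
    rw [Finset.sum_singleton] at this
    nlinarith
  have hdiv : ∀ χ : IrrCharacter G, (50232960 : ℕ) % charDegree (χ : G → ℂ) = 0 := fun χ =>
    Nat.mod_eq_zero_of_dvd (hcard ▸ Correspondences.charDegree_dvd_card χ.2)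
  -- the fixed members
  have hmemX : ∀ c ∈ X, galStab hG c = 19 - 1 ∧ rowT hG S c φ₀ ≠ 0 := fun c hc =>
    ⟨hfix c (Finset.mem_filter.1 hc).2.1 (Finset.mem_filter.1 hc).2.2, (Finset.mem_filter.1 hc).2.1⟩
  have hfixdeg : ∀ c ∈ X, (charDegree (c : G → ℂ), s c) ∈ fixedDeg := by
    intro c hc
    obtain ⟨hgal, hne⟩ := hmemX c hc
    have hmod := degree_principal_fixed S hG hM hgal (hs c) (fun h => hne (by rw [hs, h, Int.cast_zero]))
    have hl := deg_lists ⟨_, hlt c⟩ (hdiv c)
    rw [Int.modEq_iff_dvd] at hmod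
    rcases hs0 c hne with h | h <;> rw [h] at hmod ⊢
    · exact hl.1 (by show charDegree (c : G → ℂ) % 19 = 1; omega)
    · exact hl.2.1 (by show charDegree (c : G → ℂ) % 19 = 18; omega)
  have hexcdeg : (charDegree (θ : G → ℂ), s θ) ∈ excDeg := by
    have hmod := degree_principal S hG hM (hs θ) (fun h => hθ (by rw [hs, h, Int.cast_zero]))
    rw [hθe, Int.modEq_iff_dvd] at hmod
    have hl := deg_lists ⟨_, hlt θ⟩ (hdiv θ)
    rcases hs0 θ hθ with h | h <;> rw [h] at hmod ⊢
    · exact hl.2.2.1 (by show charDegree (θ : G → ℂ) % 19 = 16; omega)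
    · exact hl.2.2.2 (by show charDegree (θ : G → ℂ) % 19 = 3; omega)
  have hxX : x ∈ X := Finset.mem_of_mem_erase (hxyX ▸ Finset.mem_insert_self _ _)
  have hyX : y ∈ X := Finset.mem_of_mem_erase
    (hxyX ▸ Finset.mem_insert_of_mem (Finset.mem_singleton_self _))
  -- the relation at the identity
  have hrel := relation hG S hθe' hsub hfix (mem_galOrb_self hG θ)
    (x := (1 : G)) (by rw [orderOf_one]; norm_num)
  rw [hXset, finsum_mem_coe_finset, ← Finset.add_sum_erase _ _ htX, hxyX, Finset.sum_pair hxy, hs,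
    hs, hs, hs, CharTheory.trivIrr_apply,
    ← Correspondences.charDegree_cast (CharTheory.IsIrrCharacter.isCharacter x.2),
    ← Correspondences.charDegree_cast (CharTheory.IsIrrCharacter.isCharacter y.2),
    ← Correspondences.charDegree_cast (CharTheory.IsIrrCharacter.isCharacter θ.2)] at hrel
  have ht1 : s (CharTheory.trivIrr G) = 1 := by
    obtain ⟨hgal, hne⟩ := hmemX _ htX
    have hmod := degree_principal_fixed S hG hM hgal (hs _) (fun h => hne (by rw [hs, h, Int.cast_zero]))
    have h1 : charDegree ((CharTheory.trivIrr G : IrrCharacter G) : G → ℂ) = 1 := by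
      simp [charDegree, CharTheory.trivIrr]
    rw [h1, Int.modEq_iff_dvd] at hmod
    rcases hs0 _ hne with h | h
    · exact h
    · rw [h] at hmod; norm_num at hmod
  rw [ht1] at hrel
  have heq : 1 + (s x * charDegree (x : G → ℂ) + s y * charDegree (y : G → ℂ))
      + s θ * charDegree (θ : G → ℂ) = 0 := by
    refine Int.cast_injective (α := ℂ) ?_
    push_cast at hrel ⊢
    linear_combination hrel
  have hbound : 1 + (charDegree (x : G → ℂ) ^ 2 + charDegree (y : G → ℂ) ^ 2)
      + 6 * charDegree (θ : G → ℂ) ^ 2 ≤ 50232960 := by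
    have hdisj : Disjoint X (galOrb hG θ) :=
      Finset.disjoint_left.2 fun c hc hc' => (Finset.mem_filter.1 hc).2.2 hc'
    have h := hsq (X ∪ galOrb hG θ)
    rw [Finset.sum_union hdisj, ← Finset.add_sum_erase _ _ htX, hxyX, Finset.sum_pair hxy,
      Finset.sum_congr rfl (g := fun _ => charDegree (θ : G → ℂ) ^ 2) fun c hc => ?_,
      Finset.sum_const, hYc, smul_eq_mul,
      show charDegree ((CharTheory.trivIrr G : IrrCharacter G) : G → ℂ) = 1 by
        simp [charDegree, CharTheory.trivIrr]] at h
    · simpa using h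
    · obtain ⟨k, rfl⟩ := (mem_galOrb hG).1 hc
      have hdeg : (gal hG k θ : G → ℂ) 1 = (θ : G → ℂ) 1 :=
        gal_regular hG k θ (by rw [orderOf_one]; norm_num)
      simp only [charDegree, hdeg]
  rcases deg_solutions _ (hfixdeg x hxX) _ (hfixdeg y hyX) _ hexcdeg heq hbound with h | h | h | h
  -- small exceptional degrees
  iterate 2
    have hf := faithful_of_simple θ (by rw [show charDegree (θ : G → ℂ) = _ from h]; norm_num)
    rcases OrderDegrees.Linear.classify h hf (by norm_num) (by norm_num) hPn with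
      ⟨-, h2⟩ | ⟨h2, -⟩ | ⟨e, t, he1, ht, he3, het, hne⟩
    · omega
    · omega
    · first
        | exact hne ⟨rfl, rfl⟩
        | (obtain rfl : e = 16 := by omega
           omega)
  -- a fixed member of degree `18`
  · exact no_eighteen hcard S hG hM hS hC (hmemX x hxX).1 (hmemX x hxX).2 h
  · exact no_eighteen hcard S hG hM hS hC (hmemX y hyX).1 (hmemX y hyX).2 h

end CfsgLib.JankoThreeLocal
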