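import Cfsg.Prelude.Def_Transfer
import Cfsg.Agent.Lib.JankoThreeLocal.Block
import Cfsg.Agent.Lib.SmallGroups.Basic
import Cfsg.Agent.Lib.SmallGroups.SylowTwentyOne
import Cfsg.Agent.Lib.PGroups.Frattini

/-!
# Sylow `17`- and `19`-normalizers in a group of `J₃`-type of order `50232960`
-/

set_option autoImplicit false
set_option linter.style.haveILetI false

open Cfsg Subgroup
open scoped Pointwise

namespace CfsgLib.JankoThreeLocal

universe u

variable {G : Type u} [Group G] [Finite G]

omit [Finite G] in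
/-- Elements commuting with an involution have their orders realised in `C(t)`. -/
theorem exists_orderOf_centralizer (hone : ∀ x y : G, orderOf x = 2 → orderOf y = 2 → IsConj x y)
    {t : G} (ht : orderOf t = 2) {s x : G} (hs : orderOf s = 2) (hxs : Commute x s) :
    ∃ y : ↥(centralizer ({t} : Set G)), orderOf y = orderOf x := by
  obtain ⟨g, hg⟩ := isConj_iff.1 (hone s t hs ht)
  refine ⟨⟨MulAut.conj g x, mem_centralizer_singleton_iff.2 ?_⟩, ?_⟩
  · rw [← hg]
    exact (hxs.map (MulAut.conj g).toMonoidHom).eq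
  · rw [← Subgroup.orderOf_coe]
    exact MulEquiv.orderOf_eq (MulAut.conj g) x

/-- The data of a Sylow subgroup of prime order. -/
theorem sylow_data [IsSimpleGroup G] (hG : ¬ IsMulCommutative G)
    (hone : ∀ x y : G, orderOf x = 2 → orderOf y = 2 → IsConj x y) {t : G} (ht : orderOf t = 2)
    (hC : Nat.card ↥(centralizer ({t} : Set G)) = 1920) {p m o : ℕ} [hp : Fact p.Prime]
    (hn : Nat.card G = p * m) (hm : ¬ p ∣ m) (hp2 : ¬ p ∣ 1920) (ho : m = 128 * o) (ho0 : o ≠ 0)
    (P : Sylow p G) :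
    ∃ c k : ℕ, Nat.card ↥(centralizer ((P : Subgroup G) : Set G)) = p * c ∧
      Nat.card ↥(normalizer ((P : Subgroup G) : Set G)) = p * c * k ∧
      (centralizer ((P : Subgroup G) : Set G)).relIndex (normalizer ((P : Subgroup G) : Set G)) = k ∧
      c ∈ o.divisors ∧ k ∈ (p - 1).divisors ∧ k ≠ 1 ∧ c * k % p = m % p ∧ Odd c := by
  obtain ⟨c, k, hc, hN, hk1, hk, hprod⟩ := SmallGroups.sylow_prime_data hG hn hm P
  have hodd : ¬ 2 ∣ c := by
    intro h2
    obtain ⟨s, hs⟩ := exists_prime_orderOf_dvd_card' (hp := ⟨Nat.prime_two⟩)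
      (G := ↥(centralizer ((P : Subgroup G) : Set G))) 2 (by rw [hc]; exact h2.mul_left p)
    have hP : Nat.card ↥(P : Subgroup G) = p := by
      simpa using SmallGroups.card_sylow_eq (a := 1) (by simpa using hn) hm P
    obtain ⟨x, hx⟩ := exists_prime_orderOf_dvd_card' (G := ↥(P : Subgroup G)) p (by rw [hP])
    obtain ⟨y, hy⟩ := exists_orderOf_centralizer hone ht (s := (s : G)) (x := (x : G))
      (by rw [Subgroup.orderOf_coe, hs]) (mem_centralizer_iff.1 s.2 _ x.2)
    have := orderOf_dvd_natCard y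
    rw [hy, Subgroup.orderOf_coe, hx, hC] at this
    exact hp2 this
  have hrel : (centralizer ((P : Subgroup G) : Set G)).relIndex
      (normalizer ((P : Subgroup G) : Set G)) = k := by
    have h := relIndex_mul_relIndex ⊥ _ _ bot_le
      (centralizer_le_normalizer ((P : Subgroup G) : Set G))
    rw [relIndex_bot_left, relIndex_bot_left, hN, hc] at h
    refine Nat.eq_of_mul_eq_mul_left ?_ h
    rw [← hc]; exact Nat.card_pos
  refine ⟨c, k, hc, hN, hrel, Nat.mem_divisors.2 ⟨?_, ho0⟩,
    Nat.mem_divisors.2 ⟨hk, by have := hp.out.two_le; omega⟩, by omega, ?_,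
    Nat.odd_iff.2 (by omega)⟩
  · have hdvd : c ∣ 2 ^ 7 * o := ⟨Nat.card (Sylow p G) * k, by
      rw [show (2 : ℕ) ^ 7 * o = m by rw [ho]; norm_num, ← hprod]; ring⟩
    exact (Nat.Coprime.pow_right 7 (((Nat.prime_two.coprime_iff_not_dvd).2 hodd).symm)).dvd_of_dvd_mul_left
      hdvd
  · have h1 : Nat.card (Sylow p G) % p = 1 % p := card_sylow_modEq_one p G
    rw [← hprod]
    have := Nat.ModEq.mul_right (c * k) (show Nat.card (Sylow p G) ≡ 1 [MOD p] from h1)
    rw [one_mul] at this
    exact this.symm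

/-- An element of order `q` centralising a Sylow `p`-subgroup centralises some Sylow `q`-subgroup
with it. -/
theorem dvd_of_dvd {p q c c' : ℕ} [hp : Fact p.Prime] [hq : Fact q.Prime] (hpq : p ≠ q)
    (P : Sylow p G) (hP : Nat.card ↥(P : Subgroup G) = p)
    (hQ : ∀ Q : Sylow q G, Nat.card ↥(Q : Subgroup G) = q ∧
      Nat.card ↥(centralizer ((Q : Subgroup G) : Set G)) = q * c')
    (hc : Nat.card ↥(centralizer ((P : Subgroup G) : Set G)) = p * c) (hqc : q ∣ c) : p ∣ c' := by
  obtain ⟨x, hx⟩ := exists_prime_orderOf_dvd_card'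
    (G := ↥(centralizer ((P : Subgroup G) : Set G))) q (by rw [hc]; exact hqc.mul_left p)
  have hcard : Nat.card ↥(zpowers (x : G)) = q := by
    rw [Nat.card_zpowers, Subgroup.orderOf_coe, hx]
  obtain ⟨Q, hQx⟩ := (IsPGroup.of_card (n := 1) (by rw [hcard, pow_one]) :
    IsPGroup q ↥(zpowers (x : G))).exists_le_sylow
  have hQe : zpowers (x : G) = (Q : Subgroup G) :=
    eq_of_le_of_card_ge hQx (by rw [(hQ Q).1, hcard])
  have hle : (P : Subgroup G) ≤ centralizer ((Q : Subgroup G) : Set G) := by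
    intro y hy
    rw [← hQe, mem_centralizer_iff]
    intro z hz
    obtain ⟨i, rfl⟩ := mem_zpowers_iff.1 hz
    exact (mem_centralizer_iff.1 (zpow_mem x.2 i) y hy).symm
  have hdvd := card_dvd_of_le hle
  rw [hP, (hQ Q).2] at hdvd
  exact (hp.out.dvd_mul.1 hdvd).resolve_left fun h =>
    hpq ((Nat.prime_dvd_prime_iff_eq hp.out hq.out).1 h)

omit [Finite G] in
/-- The automorphism group of a subgroup of prime order is cyclic. -/
theorem isCyclic_mulAut_of_card_prime {p : ℕ} [hp : Fact p.Prime] {P : Subgroup G}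
    (hP : Nat.card P = p) : IsCyclic (MulAut P) := by
  haveI : IsCyclic P := isCyclic_of_prime_card hP
  haveI : Fact (Nat.card P).Prime := ⟨hP.symm ▸ hp.out⟩
  exact (IsCyclic.mulAutMulEquiv P).isCyclic.2 inferInstance

omit [Finite G] in
/-- `N(P)/C(P)` is cyclic for `P` of prime order. -/
theorem isCyclic_quotient_centralizer {p : ℕ} [Fact p.Prime] {P : Subgroup G}
    (hP : Nat.card P = p)
    [((centralizer (P : Set G)).subgroupOf (normalizer (P : Set G))).Normal] :
    IsCyclic (↥(normalizer (P : Set G)) ⧸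
      (centralizer (P : Set G)).subgroupOf (normalizer (P : Set G))) := by
  haveI := isCyclic_mulAut_of_card_prime hP
  have h : IsCyclic (↥(normalizer (P : Set G)) ⧸ P.normalizerMonoidHom.ker) :=
    isCyclic_of_injective _ (QuotientGroup.kerLift_injective P.normalizerMonoidHom)
  exact (QuotientGroup.quotientMulEquivOfEq P.normalizerMonoidHom_ker).isCyclic.1 h

/-- If `N(P)/C(P)` has order `16` for a subgroup `P` of prime order, there is an element of order
`16` commuting with an involution. -/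
theorem exists_orderOf_sixteen {p : ℕ} [Fact p.Prime] {P : Subgroup G} (hP : Nat.card P = p)
    (hk : (centralizer (P : Set G)).relIndex (normalizer (P : Set G)) = 16) :
    ∃ w : G, orderOf w = 16 := by
  haveI : ((centralizer (P : Set G)).subgroupOf (normalizer (P : Set G))).Normal :=
    P.normalizerMonoidHom_ker ▸ inferInstance
  haveI := isCyclic_quotient_centralizer hP
  obtain ⟨a, ha⟩ := IsCyclic.exists_ofOrder_eq_natCard (α := ↥(normalizer (P : Set G)) ⧸
    (centralizer (P : Set G)).subgroupOf (normalizer (P : Set G)))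
  obtain ⟨b, rfl⟩ := QuotientGroup.mk'_surjective _ a
  have hd : 16 ∣ orderOf (b : G) := by
    rw [← hk, relIndex, index_eq_card, ← ha, Subgroup.orderOf_coe]
    exact orderOf_map_dvd _ b
  exact ⟨_, orderOf_pow_orderOf_div (orderOf_pos (b : G)).ne' hd⟩

/-- `C(t)` has no element of order `16`. -/
theorem orderOf_ne_sixteen {C : Subgroup G} (E : Subgroup C) [E.Normal] (hE : IsExtraspecial 2 E)
    (e : C ⧸ E ≃* alternatingGroup (Fin 5)) (y : C) : orderOf y ≠ 16 := by
  intro hy
  have halt : ∀ a : alternatingGroup (Fin 5), a ^ 4 = 1 → a ^ 2 = 1 := by decide +kernel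
  have h16 : (e (y : C ⧸ E)) ^ 16 = 1 := by
    rw [← map_pow, ← QuotientGroup.mk_pow, ← hy, pow_orderOf_eq_one, QuotientGroup.mk_one, map_one]
  have h4 : (e (y : C ⧸ E)) ^ 4 = 1 := by
    rw [← orderOf_dvd_iff_pow_eq_one] at h16 ⊢
    have h60 := orderOf_dvd_natCard (e (y : C ⧸ E))
    rw [nat_card_alternatingGroup, Nat.card_eq_fintype_card, Fintype.card_fin] at h60
    have := Nat.dvd_gcd h16 h60
    simpa [Nat.factorial] using this
  have h2 := halt _ h4
  rw [← map_pow, map_eq_one_iff e e.injective, ← QuotientGroup.mk_pow,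
    QuotientGroup.eq_one_iff] at h2
  have hsq : (⟨y ^ 2, h2⟩ : E) ^ 2 ∈ center E := by
    rw [← hE.1.2.1]
    exact PGroups.pow_mem_frattini hE.1.1 _
  have h := pow_card_eq_one' (x := (⟨_, hsq⟩ : center E))
  rw [hE.2] at h
  have h8 : y ^ 8 = 1 := by
    have := congrArg (fun z : center E => ((z : E) : C)) h
    simpa [← pow_mul] using this
  have := orderOf_dvd_of_pow_eq_one h8
  rw [hy] at this
  norm_num at this

omit [Finite G] in
/-- The normaliser of a subgroup with a unique Sylow `q`-subgroup in its centraliser normalises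
that subgroup. -/
theorem normalizer_le_normalizer_map {P : Subgroup G} {q : ℕ}
    (Q : Sylow q ↥(centralizer (P : Set G))) [Subsingleton (Sylow q ↥(centralizer (P : Set G)))] :
    normalizer (P : Set G) ≤
      normalizer (((Q : Subgroup _).map (centralizer (P : Set G)).subtype : Subgroup G) : Set G) := by
  have key : ∀ g ∈ normalizer (P : Set G),
      ∀ x ∈ (Q : Subgroup _).map (centralizer (P : Set G)).subtype,
      g * x * g⁻¹ ∈ (Q : Subgroup _).map (centralizer (P : Set G)).subtype := by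
    rintro g hg _ ⟨x, hx, rfl⟩
    have hmem : g * (x : G) * g⁻¹ ∈ centralizer (P : Set G) := by
      rw [mem_centralizer_iff]
      intro z hz
      have h1 := mem_centralizer_iff.1 x.2 _ ((mem_normalizer_iff''.1 hg z).1 hz)
      calc z * (g * x * g⁻¹) = g * ((g⁻¹ * z * g) * x) * g⁻¹ := by group
        _ = g * (x * (g⁻¹ * z * g)) * g⁻¹ := by rw [h1]
        _ = g * x * g⁻¹ * z := by group
    have hord : orderOf (⟨_, hmem⟩ : ↥(centralizer (P : Set G))) = orderOf x := by
      rw [Subgroup.orderOf_mk, ← Subgroup.orderOf_coe x]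
      exact MulEquiv.orderOf_eq (MulAut.conj g) (x : G)
    obtain ⟨i, hi⟩ := Q.isPGroup' ⟨x, hx⟩
    have hpow : x ^ q ^ i = 1 := congrArg Subtype.val hi
    have hg' : IsPGroup q ↥(zpowers (⟨_, hmem⟩ : ↥(centralizer (P : Set G)))) := fun ⟨z, hz⟩ => by
      obtain ⟨j, rfl⟩ := mem_zpowers_iff.1 hz
      refine ⟨i, Subtype.ext ?_⟩
      have h1 : (⟨_, hmem⟩ : ↥(centralizer (P : Set G))) ^ q ^ i = 1 := by
        rw [← orderOf_dvd_iff_pow_eq_one, hord]
        exact orderOf_dvd_of_pow_eq_one hpow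
      show ((⟨_, hmem⟩ : ↥(centralizer (P : Set G))) ^ j) ^ q ^ i = 1
      rw [← zpow_natCast, ← zpow_mul, mul_comm, zpow_mul, zpow_natCast, h1, one_zpow]
    obtain ⟨Q₁, hQ₁⟩ := hg'.exists_le_sylow
    exact ⟨⟨_, hmem⟩, Subsingleton.elim Q₁ Q ▸ hQ₁ (mem_zpowers _), rfl⟩
  intro g hg
  rw [mem_normalizer_iff]
  refine fun x => ⟨key g hg x, fun hx => ?_⟩
  simpa [mul_assoc] using key g⁻¹ (inv_mem hg) _ hx

/-- A Sylow `17`-subgroup of a simple group of `J₃`-type is not centralised by elements of order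
`19`. -/
theorem not_nineteen_dvd (P : Sylow 17 G) [Fact (Nat.Prime 17)] [Fact (Nat.Prime 19)] {c k : ℕ}
    (hP : Nat.card ↥(P : Subgroup G) = 17)
    (hc : Nat.card ↥(centralizer ((P : Subgroup G) : Set G)) = 17 * c)
    (hN : Nat.card ↥(normalizer ((P : Subgroup G) : Set G)) = 17 * c * k) (hcv : c = 19 ∨ c = 171)
    (hk : 2 ∣ k)
    (hodd : ∀ Q : Sylow 19 G, Nat.card ↥(Q : Subgroup G) = 19 ∧
      Odd (Nat.card ↥(normalizer ((Q : Subgroup G) : Set G)))) : False := by
  set C := centralizer ((P : Subgroup G) : Set G) with hC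
  obtain ⟨d, rfl, hd⟩ : ∃ d, c = 19 * d ∧ (d = 1 ∨ d = 9) := by
    rcases hcv with rfl | rfl
    · exact ⟨1, rfl, Or.inl rfl⟩
    · exact ⟨9, rfl, Or.inr rfl⟩
  have hCc : Nat.card C = 19 ^ 1 * (17 * d) := by rw [hc]; ring
  have hnd : ¬ 19 ∣ 17 * d := by rcases hd with rfl | rfl <;> norm_num
  obtain ⟨Q₀⟩ := (inferInstance : Nonempty (Sylow 19 C))
  have hQ₀ : Nat.card ↥(Q₀ : Subgroup C) = 19 := by
    simpa using SmallGroups.card_sylow_eq hCc hnd Q₀
  have hPC : (P : Subgroup G) ≤ C := by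
    haveI : IsCyclic ↥(P : Subgroup G) := isCyclic_of_prime_card hP
    exact Subgroup.le_centralizer _
  have hk1 : Nat.card (Sylow 19 C) = 1 := by
    have hmem := SmallGroups.card_sylow_mem hCc hnd
    rw [Finset.mem_filter, Nat.mem_divisors] at hmem
    have hPN : (P : Subgroup G).subgroupOf C ≤ normalizer ((Q₀ : Subgroup C) : Set C) :=
      fun y hy => centralizer_le_normalizer _ (mem_centralizer_iff.2 fun z _ =>
        Subtype.ext (mem_centralizer_iff.1 z.2 y hy).symm)
    have h17 : 17 ∣ Nat.card ↥(normalizer ((Q₀ : Subgroup C) : Set C)) := by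
      refine dvd_trans (dvd_of_eq ?_) (card_dvd_of_le hPN)
      rw [Nat.card_congr (subgroupOfEquivOfLe hPC).toEquiv, hP]
    have hmul := SmallGroups.card_sylow_mul_card_normalizer Q₀
    obtain ⟨w, hw⟩ := h17
    have hdvd : Nat.card (Sylow 19 C) ∣ 19 * d := ⟨w, by
      rw [hw, hCc] at hmul
      refine Nat.eq_of_mul_eq_mul_left (show 0 < 17 by norm_num) ?_
      linear_combination -hmul⟩
    have hdd : Nat.card (Sylow 19 C) ∈ (19 * d).divisors :=
      Nat.mem_divisors.2 ⟨hdvd, by omega⟩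
    have hall : ∀ d ∈ [1, 9], ∀ n ∈ (19 * d).divisors, n % 19 = 1 → n = 1 := by decide +kernel
    exact hall d (by rcases hd with rfl | rfl <;> simp) _ hdd hmem.2
  haveI : Subsingleton (Sylow 19 C) := (Nat.card_eq_one_iff_unique.1 hk1).1
  set Q := (Q₀ : Subgroup C).map C.subtype with hQ
  have hQc : Nat.card Q = 19 := by rw [hQ, card_map_of_injective C.subtype_injective, hQ₀]
  obtain ⟨R, hR⟩ := (IsPGroup.of_card (n := 1) (by rw [hQc, pow_one]) :
    IsPGroup 19 Q).exists_le_sylow
  have hRQ : Q = (R : Subgroup G) := eq_of_le_of_card_ge hR (by rw [(hodd R).1, hQc])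
  have hle := card_dvd_of_le (normalizer_le_normalizer_map (P := (P : Subgroup G)) Q₀)
  change _ ∣ Nat.card ↥(normalizer (Q : Set G)) at hle
  rw [hN, hRQ] at hle
  exact Nat.not_even_iff_odd.2 (hodd R).2
    (even_iff_two_dvd.2 (((hk.mul_left _)).trans hle))

omit [Finite G] in
/-- A self-centralising subgroup of prime order has a cyclic normaliser quotient. -/
theorem selfCentralizing_of_card {p k : ℕ} [Fact p.Prime] {P : Subgroup G} [Finite G]
    (hP : Nat.card P = p) (hc : Nat.card ↥(centralizer (P : Set G)) = p * 1)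
    (hk : (centralizer (P : Set G)).relIndex (normalizer (P : Set G)) = k) :
    centralizer (P : Set G) = P ∧
      ∃ _h : (P.subgroupOf (normalizer (P : Set G))).Normal,
        IsCyclic (↥(normalizer (P : Set G)) ⧸ P.subgroupOf (normalizer (P : Set G))) ∧
        Nat.card (↥(normalizer (P : Set G)) ⧸ P.subgroupOf (normalizer (P : Set G))) = k := by
  haveI : IsCyclic P := isCyclic_of_prime_card hP
  have hCP : centralizer (P : Set G) = P :=
    (eq_of_le_of_card_ge P.le_centralizer (by rw [hc, hP, mul_one])).symm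
  haveI hn : ((centralizer (P : Set G)).subgroupOf (normalizer (P : Set G))).Normal :=
    P.normalizerMonoidHom_ker ▸ inferInstance
  have hcyc := isCyclic_quotient_centralizer hP
  have e : P.subgroupOf (normalizer (P : Set G)) =
      (centralizer (P : Set G)).subgroupOf (normalizer (P : Set G)) := by rw [hCP]
  haveI hn' : (P.subgroupOf (normalizer (P : Set G))).Normal := e ▸ hn
  refine ⟨hCP, hn', (QuotientGroup.quotientMulEquivOfEq e).isCyclic.2 hcyc, ?_⟩
  rw [Nat.card_congr (QuotientGroup.quotientMulEquivOfEq e).toEquiv, ← hk, relIndex, index_eq_card]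

/-- In a simple group of order `50232960` of `J₃`-type the Sylow `19`- and `17`-subgroups are
self-centralising with cyclic normaliser quotients of order `9` and `8`. -/
theorem sylow_seventeen_nineteen [IsSimpleGroup G] (hcard : Nat.card G = 50232960)
    (hone : ∀ x y : G, orderOf x = 2 → orderOf y = 2 → IsConj x y) {t : G} (ht : orderOf t = 2)
    (E : Subgroup ↥(centralizer ({t} : Set G))) [E.Normal] (hE : IsExtraspecial 2 E)
    (hE32 : Nat.card E = 32)
    (e : ↥(centralizer ({t} : Set G)) ⧸ E ≃* alternatingGroup (Fin 5)) :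
    (∀ X : Sylow 19 G, centralizer ((X : Subgroup G) : Set G) = X ∧
        ∃ _h : ((X : Subgroup G).subgroupOf (normalizer ((X : Subgroup G) : Set G))).Normal,
          IsCyclic (↥(normalizer ((X : Subgroup G) : Set G)) ⧸ (X : Subgroup G).subgroupOf _) ∧
          Nat.card (↥(normalizer ((X : Subgroup G) : Set G)) ⧸ (X : Subgroup G).subgroupOf _) = 9) ∧
    (∀ Y : Sylow 17 G, centralizer ((Y : Subgroup G) : Set G) = Y ∧
        ∃ _h : ((Y : Subgroup G).subgroupOf (normalizer ((Y : Subgroup G) : Set G))).Normal,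
          IsCyclic (↥(normalizer ((Y : Subgroup G) : Set G)) ⧸ (Y : Subgroup G).subgroupOf _) ∧
          Nat.card (↥(normalizer ((Y : Subgroup G) : Set G)) ⧸ (Y : Subgroup G).subgroupOf _) = 8) := by
  haveI : Fact (Nat.Prime 17) := ⟨by norm_num⟩
  haveI : Fact (Nat.Prime 19) := ⟨by norm_num⟩
  haveI := Fintype.ofFinite G
  have hC : Nat.card ↥(centralizer ({t} : Set G)) = 1920 := by
    rw [card_eq_card_quotient_mul_card_subgroup E, hE32, Nat.card_congr e.toEquiv,
      nat_card_alternatingGroup, Nat.card_eq_fintype_card, Fintype.card_fin]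
    rfl
  have hG : ¬ IsMulCommutative G := fun h => by
    have hp : (Nat.card G).Prime := by
      letI : CommGroup G := { ‹Group G› with mul_comm := h.is_comm.comm }
      exact IsSimpleGroup.prime_card
    rw [hcard] at hp
    norm_num at hp
  have hS19 : ∀ Q : Sylow 19 G, Nat.card ↥(Q : Subgroup G) = 19 := fun Q => by
    simpa using SmallGroups.card_sylow_eq (a := 1) (m := 2643840) (by rw [hcard]; norm_num)
      (by norm_num) Q
  have hS17 : ∀ Q : Sylow 17 G, Nat.card ↥(Q : Subgroup G) = 17 := fun Q => by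
    simpa using SmallGroups.card_sylow_eq (a := 1) (m := 2954880) (by rw [hcard]; norm_num)
      (by norm_num) Q
  -- the Sylow data
  have h19 : ∀ Q : Sylow 19 G, ∃ c k, Nat.card ↥(centralizer ((Q : Subgroup G) : Set G)) = 19 * c ∧
      Nat.card ↥(normalizer ((Q : Subgroup G) : Set G)) = 19 * c * k ∧
      (centralizer ((Q : Subgroup G) : Set G)).relIndex (normalizer ((Q : Subgroup G) : Set G)) = k ∧
      (((c = 1 ∨ c = 153) ∧ k = 9) ∨ ((c = 3 ∨ c = 459) ∧ k = 3)) ∧
      Odd (19 * c * k) := fun Q => by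
    obtain ⟨c, k, hc, hN, hrel, hco, hk, hk1, hmod, hodd⟩ := sylow_data hG hone ht hC
      (p := 19) (m := 2643840) (o := 20655) (by rw [hcard]) (by norm_num) (by norm_num) rfl
      (by norm_num) Q
    have h := check19_aux c hco k hk hk1 hmod
    refine ⟨c, k, hc, hN, hrel, h, ?_⟩
    rcases h with ⟨-, rfl⟩ | ⟨-, rfl⟩ <;> exact ((by decide : Odd 19).mul hodd).mul (by decide)
  have h17 : ∀ Q : Sylow 17 G, ∃ c k, Nat.card ↥(centralizer ((Q : Subgroup G) : Set G)) = 17 * c ∧
      Nat.card ↥(normalizer ((Q : Subgroup G) : Set G)) = 17 * c * k ∧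
      (centralizer ((Q : Subgroup G) : Set G)).relIndex (normalizer ((Q : Subgroup G) : Set G)) = k ∧
      c = 1 ∧ k = 8 := fun Q => by
    obtain ⟨c, k, hc, hN, hrel, hco, hk, hk1, hmod, -⟩ := sylow_data hG hone ht hC
      (p := 17) (m := 2954880) (o := 23085) (by rw [hcard]) (by norm_num) (by norm_num) rfl
      (by norm_num) Q
    refine ⟨c, k, hc, hN, hrel, ?_⟩
    have hodd19 : ∀ R : Sylow 19 G, Nat.card ↥(R : Subgroup G) = 19 ∧
        Odd (Nat.card ↥(normalizer ((R : Subgroup G) : Set G))) := fun R => by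
      obtain ⟨c', k', -, hN', -, -, ho⟩ := h19 R
      exact ⟨hS19 R, hN' ▸ ho⟩
    rcases check17_aux c hco k hk hk1 hmod with rfl | ⟨rfl, rfl⟩ | ⟨rfl, rfl⟩ | h
    · exfalso
      obtain ⟨w, hw⟩ := exists_orderOf_sixteen (hS17 Q) hrel
      obtain ⟨y, hy⟩ := exists_orderOf_centralizer hone ht (s := w ^ 8) (x := w)
        (by rw [orderOf_pow' _ (by norm_num), hw]; rfl) (Commute.self_pow w 8)
      exact orderOf_ne_sixteen E hE e y (hy.trans hw)
    · exact (not_nineteen_dvd Q (hS17 Q) hc hN (Or.inl rfl) (by norm_num) hodd19).elim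
    · exact (not_nineteen_dvd Q (hS17 Q) hc hN (Or.inr rfl) (by norm_num) hodd19).elim
    · exact h
  refine ⟨fun X => ?_, fun Y => ?_⟩
  · obtain ⟨c, k, hc, hN, hrel, h, -⟩ := h19 X
    have hnd : ¬ 17 ∣ c := fun hdvd => by
      have hQ : ∀ Q : Sylow 17 G, Nat.card ↥(Q : Subgroup G) = 17 ∧
          Nat.card ↥(centralizer ((Q : Subgroup G) : Set G)) = 17 * 1 := fun Q => by
        obtain ⟨c', k', hc', -, -, rfl, -⟩ := h17 Q
        exact ⟨hS17 Q, hc'⟩
      exact absurd (dvd_of_dvd (by norm_num) X (hS19 X) hQ hc hdvd) (by norm_num)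
    rcases h with ⟨rfl | rfl, rfl⟩ | ⟨rfl | rfl, rfl⟩
    · exact selfCentralizing_of_card (hS19 X) hc hrel
    · exact absurd (by norm_num) hnd
    · exact (false_of_three hcard X hc hrel).elim
    · exact absurd (by norm_num) hnd
  · obtain ⟨c, k, hc, -, hrel, rfl, rfl⟩ := h17 Y
    exact selfCentralizing_of_card (hS17 Y) hc hrel

end CfsgLib.JankoThreeLocal
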