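import Mathlib

/-!
# Numerical checks for the Sylow `17`- and `19`-normalisers of a group of order `50232960`
-/

set_option autoImplicit false
set_option maxRecDepth 10000

namespace CfsgLib.JankoThreeLocal

theorem check17_aux : ∀ c ∈ Nat.divisors 23085, ∀ k ∈ Nat.divisors 16, k ≠ 1 →
    c * k % 17 = 2954880 % 17 →
    k = 16 ∨ (c = 19 ∧ k = 4) ∨ (c = 171 ∧ k = 8) ∨ (c = 1 ∧ k = 8) := by
  decide +kernel

theorem check19_aux : ∀ c ∈ Nat.divisors 20655, ∀ k ∈ Nat.divisors 18, k ≠ 1 →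
    c * k % 19 = 2643840 % 19 →
    ((c = 1 ∨ c = 153) ∧ k = 9) ∨ ((c = 3 ∨ c = 459) ∧ k = 3) := by
  decide +kernel

/-- The possible degrees of the fixed members, with their signs. -/
def fixedDeg : List (ℕ × ℤ) :=
  [(1, 1), (18, -1), (20, 1), (96, 1), (153, 1), (170, -1), (324, 1), (360, -1), (816, -1),
   (1215, -1), (1728, -1), (1920, 1), (2754, -1), (3060, 1), (6480, 1)]

/-- The possible degrees of the exceptional members, with their signs. -/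
def excDeg : List (ℕ × ℤ) :=
  [(3, -1), (16, 1), (54, 1), (60, -1), (136, -1), (288, -1), (320, 1), (459, -1), (510, 1),
   (972, -1), (1080, 1), (2448, 1), (2720, -1), (5184, 1), (5760, -1)]

theorem deg_lists : ∀ d : Fin 7088, (50232960 : ℕ) % d.val = 0 →
    (d.val % 19 = 1 → (d.val, (1 : ℤ)) ∈ fixedDeg) ∧
    (d.val % 19 = 18 → (d.val, (-1 : ℤ)) ∈ fixedDeg) ∧
    (d.val % 19 = 16 → (d.val, (1 : ℤ)) ∈ excDeg) ∧
    (d.val % 19 = 3 → (d.val, (-1 : ℤ)) ∈ excDeg) := by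
  decide +kernel

theorem deg_solutions : ∀ a ∈ fixedDeg, ∀ b ∈ fixedDeg, ∀ d ∈ excDeg,
    1 + (a.2 * a.1 + b.2 * b.1) + d.2 * d.1 = 0 →
    1 + (a.1 ^ 2 + b.1 ^ 2) + 6 * d.1 ^ 2 ≤ 50232960 →
    d.1 = 3 ∨ d.1 = 16 ∨ a.1 = 18 ∨ b.1 = 18 := by
  decide +kernel

end CfsgLib.JankoThreeLocal
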